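import Cfsg.Agent.ClosedTwo.PspWr

/-!
# `Sp_2m(q)`, `q` odd: the elements mixing two planes (helper747, S5161)

`wE N a b : (v_a, v_b) ↦ (N (v_a + v_b), N (v_b - v_a))`, `det N = 1/2`.
-/

set_option autoImplicit false
set_option linter.unusedSectionVars false

namespace Cfsg.Agent.H747.PspRow

open Matrix Subgroup Cfsg Cfsg.Agent.ClassicalGeometry.SympBasic Cfsg.Agent.HoltZ.Psp Cfsg.Agent.ClosedTwo.Psp

variable {F : Type*} [Field F] {m : ℕ}

local notation "V" => (Fin m ⊕ Fin m → F)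
local notation "G" => Matrix.symplecticGroup (Fin m) F
local notation "f" => sympForm m F
local notation "Mat" => Matrix (Fin m ⊕ Fin m) (Fin m ⊕ Fin m) F
local notation "SL" => Matrix.SpecialLinearGroup (Fin 2) F
local notation "M2" => Matrix (Fin 2) (Fin 2) F

/-- mixing two planes -/
def wf (N : M2) (a b : Fin m) (v : V) : V :=
  Sum.elim
    (fun k => if k = a then N 0 0 * (v (.inl a) + v (.inl b)) + N 0 1 * (v (.inr a) + v (.inr b))
      else if k = b then N 0 0 * (v (.inl b) - v (.inl a)) + N 0 1 * (v (.inr b) - v (.inr a)) else v (.inl k))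
    (fun k => if k = a then N 1 0 * (v (.inl a) + v (.inl b)) + N 1 1 * (v (.inr a) + v (.inr b))
      else if k = b then N 1 0 * (v (.inl b) - v (.inl a)) + N 1 1 * (v (.inr b) - v (.inr a)) else v (.inr k))

theorem wf_la (N : M2) (a b : Fin m) (v : V) : wf N a b v (.inl a) =
    N 0 0 * (v (.inl a) + v (.inl b)) + N 0 1 * (v (.inr a) + v (.inr b)) := by
  simp only [wf, Sum.elim_inl, if_true]

theorem wf_ra (N : M2) (a b : Fin m) (v : V) : wf N a b v (.inr a) =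
    N 1 0 * (v (.inl a) + v (.inl b)) + N 1 1 * (v (.inr a) + v (.inr b)) := by
  simp only [wf, Sum.elim_inr, if_true]

theorem wf_lb (N : M2) {a b : Fin m} (hab : a ≠ b) (v : V) : wf N a b v (.inl b) =
    N 0 0 * (v (.inl b) - v (.inl a)) + N 0 1 * (v (.inr b) - v (.inr a)) := by
  simp only [wf, Sum.elim_inl, if_neg hab.symm, if_true]

theorem wf_rb (N : M2) {a b : Fin m} (hab : a ≠ b) (v : V) : wf N a b v (.inr b) =
    N 1 0 * (v (.inl b) - v (.inl a)) + N 1 1 * (v (.inr b) - v (.inr a)) := by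
  simp only [wf, Sum.elim_inr, if_neg hab.symm, if_true]

theorem wf_l (N : M2) {a b k : Fin m} (ha : k ≠ a) (hb : k ≠ b) (v : V) : wf N a b v (.inl k) = v (.inl k) := by
  simp only [wf, Sum.elim_inl, if_neg ha, if_neg hb]

theorem wf_r (N : M2) {a b k : Fin m} (ha : k ≠ a) (hb : k ≠ b) (v : V) : wf N a b v (.inr k) = v (.inr k) := by
  simp only [wf, Sum.elim_inr, if_neg ha, if_neg hb]

theorem wf_form {N : M2} (hN : 2 * N.det = 1) {a b : Fin m} (hab : a ≠ b) (u v : V) :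
    f (wf N a b u) (wf N a b v) = f u v := by
  rw [sympForm_eq_sum, sympForm_eq_sum]
  have hb : b ∈ Finset.univ.erase a := Finset.mem_erase.2 ⟨hab.symm, Finset.mem_univ _⟩
  rw [← Finset.add_sum_erase _ _ (Finset.mem_univ a), ← Finset.add_sum_erase _ (fun k => _ - _) (Finset.mem_univ a),
    ← Finset.add_sum_erase _ _ hb, ← Finset.add_sum_erase _ (fun k => _ - _) hb, ← add_assoc, ← add_assoc]
  congr 1
  · rw [wf_la, wf_ra, wf_lb N hab, wf_rb N hab, wf_la, wf_ra, wf_lb N hab, wf_rb N hab]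
    rw [det_fin_two] at hN
    linear_combination (u (Sum.inr a) * v (Sum.inl a) - u (Sum.inl a) * v (Sum.inr a) +
      u (Sum.inr b) * v (Sum.inl b) - u (Sum.inl b) * v (Sum.inr b)) * hN
  · refine Finset.sum_congr rfl fun k hk => ?_
    rw [Finset.mem_erase, Finset.mem_erase] at hk
    rw [wf_l N hk.2.1 hk.1, wf_r N hk.2.1 hk.1, wf_l N hk.2.1 hk.1, wf_r N hk.2.1 hk.1]

/-- mixing two planes, as a group element -/
def wE {N : M2} (hN : 2 * N.det = 1) {a b : Fin m} (hab : a ≠ b) : G := ofFun (wf N a b)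
  (fun u v => by
    ext (k | k)
    · simp only [wf, Sum.elim_inl, Pi.add_apply]; split_ifs <;> ring
    · simp only [wf, Sum.elim_inr, Pi.add_apply]; split_ifs <;> ring)
  (fun c v => by
    ext (k | k)
    · simp only [wf, Sum.elim_inl, Pi.smul_apply, smul_eq_mul]; split_ifs <;> ring
    · simp only [wf, Sum.elim_inr, Pi.smul_apply, smul_eq_mul]; split_ifs <;> ring)
  (wf_form hN hab)

theorem wE_mulVec {N : M2} (hN : 2 * N.det = 1) {a b : Fin m} (hab : a ≠ b) (v : V) :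
    ((wE hN hab : G) : Mat) *ᵥ v = wf N a b v := ofFun_mulVec _ _ _ _ v

/-- extensionality at two planes -/
theorem ext_two {a b : Fin m} {u v : V} (h1 : u (.inl a) = v (.inl a)) (h2 : u (.inr a) = v (.inr a))
    (h3 : u (.inl b) = v (.inl b)) (h4 : u (.inr b) = v (.inr b))
    (h5 : ∀ k, k ≠ a → k ≠ b → u (.inl k) = v (.inl k)) (h6 : ∀ k, k ≠ a → k ≠ b → u (.inr k) = v (.inr k)) :
    u = v := by
  ext (k | k)
  · by_cases ha : k = a
    · rw [ha]; exact h1
    by_cases hb : k = b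
    · rw [hb]; exact h3
    exact h5 k ha hb
  · by_cases ha : k = a
    · rw [ha]; exact h2
    by_cases hb : k = b
    · rw [hb]; exact h4
    exact h6 k ha hb

/-- the function with value `x` at `a` and `b` -/
def pr (a b : Fin m) (x : SL) : Fin m → SL := fun k => if k = a ∨ k = b then x else 1

theorem pr_a (a b : Fin m) (x : SL) : pr a b x a = x := if_pos (Or.inl rfl)
theorem pr_b (a b : Fin m) (x : SL) : pr a b x b = x := if_pos (Or.inr rfl)
theorem pr_ne {a b k : Fin m} (ha : k ≠ a) (hb : k ≠ b) (x : SL) : pr a b x k = 1 :=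
  if_neg (by rintro (h | h); exacts [ha h, hb h])

theorem bf_one {g : Fin m → SL} {k : Fin m} (h : g k = 1) (v : V) :
    bf g v (.inl k) = v (.inl k) ∧ bf g v (.inr k) = v (.inr k) := by
  rw [bf_inl, bf_inr, h]
  simp

/-- the product of two mixing elements -/
theorem wE_mul_wE {N M : M2} (hN : 2 * N.det = 1) (hM : 2 * M.det = 1) {a b : Fin m} (hab : a ≠ b) {y : SL}
    (hy : (2 : F) • (N * M) = (y : M2)) : (wE hN hab * wE hM hab.symm : G) = blk (pr a b y) := by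
  have e : ∀ i j, y i j = 2 * (N i 0 * M 0 j + N i 1 * M 1 j) := by
    intro i j
    change (y : M2) i j = _
    rw [← hy, Matrix.smul_apply, Matrix.mul_apply, Fin.sum_univ_two, smul_eq_mul]
  refine ext_mulVec fun v => ?_
  rw [coe_mul_mulVec, wE_mulVec, wE_mulVec, blk_mulVec]
  refine ext_two (a := a) (b := b) ?_ ?_ ?_ ?_ ?_ ?_
  · rw [wf_la, wf_la, wf_ra, wf_lb M hab.symm, wf_rb M hab.symm, bf_inl, pr_a, e, e]; ring
  · rw [wf_ra, wf_la, wf_ra, wf_lb M hab.symm, wf_rb M hab.symm, bf_inr, pr_a, e, e]; ring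
  · rw [wf_lb N hab, wf_la, wf_ra, wf_lb M hab.symm, wf_rb M hab.symm, bf_inl, pr_b, e, e]; ring
  · rw [wf_rb N hab, wf_la, wf_ra, wf_lb M hab.symm, wf_rb M hab.symm, bf_inr, pr_b, e, e]; ring
  · intro k ha hb
    rw [wf_l N ha hb, wf_l M hb ha, (bf_one (pr_ne ha hb y) v).1]
  · intro k ha hb
    rw [wf_r N ha hb, wf_r M hb ha, (bf_one (pr_ne ha hb y) v).2]

/-- `wE` and diagonal elements -/
theorem wE_blk {N : M2} (hN : 2 * N.det = 1) {a b : Fin m} (hab : a ≠ b) {q q' : SL}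
    (h : N * (q : M2) = (q' : M2) * N) :
    (wE hN hab * blk (pr a b q) : G) = blk (pr a b q') * wE hN hab := by
  have e : ∀ i j, N i 0 * q 0 j + N i 1 * q 1 j = q' i 0 * N 0 j + q' i 1 * N 1 j := by
    intro i j
    have := congrFun (congrFun h i) j
    rw [Matrix.mul_apply, Fin.sum_univ_two, Matrix.mul_apply, Fin.sum_univ_two] at this
    exact this
  refine ext_mulVec fun v => ?_
  rw [coe_mul_mulVec, coe_mul_mulVec, wE_mulVec, wE_mulVec, blk_mulVec, blk_mulVec]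
  refine ext_two (a := a) (b := b) ?_ ?_ ?_ ?_ ?_ ?_
  · rw [wf_la, bf_inl, bf_inl, bf_inl, bf_inr, bf_inr, wf_la, wf_ra, pr_a, pr_b, pr_a]
    linear_combination (v (.inl a) + v (.inl b)) * e 0 0 + (v (.inr a) + v (.inr b)) * e 0 1
  · rw [wf_ra, bf_inr, bf_inl, bf_inl, bf_inr, bf_inr, wf_la, wf_ra, pr_a, pr_b, pr_a]
    linear_combination (v (.inl a) + v (.inl b)) * e 1 0 + (v (.inr a) + v (.inr b)) * e 1 1
  · rw [wf_lb N hab, bf_inl, bf_inl, bf_inl, bf_inr, bf_inr, wf_lb N hab, wf_rb N hab, pr_a, pr_b, pr_b]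
    linear_combination (v (.inl b) - v (.inl a)) * e 0 0 + (v (.inr b) - v (.inr a)) * e 0 1
  · rw [wf_rb N hab, bf_inr, bf_inl, bf_inl, bf_inr, bf_inr, wf_lb N hab, wf_rb N hab, pr_a, pr_b, pr_b]
    linear_combination (v (.inl b) - v (.inl a)) * e 1 0 + (v (.inr b) - v (.inr a)) * e 1 1
  · intro k ha hb
    rw [wf_l N ha hb, (bf_one (pr_ne ha hb q) v).1, (bf_one (pr_ne ha hb q') _).1, wf_l N ha hb]
  · intro k ha hb
    rw [wf_r N ha hb, (bf_one (pr_ne ha hb q) v).2, (bf_one (pr_ne ha hb q') _).2, wf_r N ha hb]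

/-- the square -/
theorem wE_sq {N : M2} (hN : 2 * N.det = 1) {a b : Fin m} (hab : a ≠ b) {y : SL}
    (hy : (2 : F) • (N * N) = (y : M2)) :
    (wE hN hab * wE hN hab : G) = blk (pr a b y) * (pmh (Equiv.swap a b) * blk (Pi.mulSingle a (-1))) := by
  have e : ∀ i j, y i j = 2 * (N i 0 * N 0 j + N i 1 * N 1 j) := by
    intro i j
    change (y : M2) i j = _
    rw [← hy, Matrix.smul_apply, Matrix.mul_apply, Fin.sum_univ_two, smul_eq_mul]
  have n1 : ∀ (i j : Fin 2), (-1 : SL) i j = if i = j then -1 else 0 := fun i j => by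
    rw [Matrix.SpecialLinearGroup.coe_neg, Matrix.neg_apply, Matrix.SpecialLinearGroup.coe_one, Matrix.one_apply]
    split_ifs <;> simp
  refine ext_mulVec fun v => ?_
  rw [coe_mul_mulVec, coe_mul_mulVec, coe_mul_mulVec, wE_mulVec, wE_mulVec, blk_mulVec, pmh_mulVec, blk_mulVec]
  have hb1 : (Pi.mulSingle a (-1) : Fin m → SL) b = 1 := Pi.mulSingle_eq_of_ne hab.symm _
  refine ext_two (a := a) (b := b) ?_ ?_ ?_ ?_ ?_ ?_
  · rw [wf_la, wf_la, wf_ra, wf_lb N hab, wf_rb N hab, bf_inl, pf_inl, pf_inr, Equiv.symm_swap,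
      Equiv.swap_apply_left, (bf_one hb1 v).1, (bf_one hb1 v).2, pr_a, e, e]
    ring
  · rw [wf_ra, wf_la, wf_ra, wf_lb N hab, wf_rb N hab, bf_inr, pf_inl, pf_inr, Equiv.symm_swap,
      Equiv.swap_apply_left, (bf_one hb1 v).1, (bf_one hb1 v).2, pr_a, e, e]
    ring
  · rw [wf_lb N hab, wf_la, wf_ra, wf_lb N hab, wf_rb N hab, bf_inl, pf_inl, pf_inr, Equiv.symm_swap,
      Equiv.swap_apply_right, bf_inl, bf_inr, Pi.mulSingle_eq_same, pr_b, e, e, n1, n1, n1, n1]
    simp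
    ring
  · rw [wf_rb N hab, wf_la, wf_ra, wf_lb N hab, wf_rb N hab, bf_inr, pf_inl, pf_inr, Equiv.symm_swap,
      Equiv.swap_apply_right, bf_inl, bf_inr, Pi.mulSingle_eq_same, pr_b, e, e, n1, n1, n1, n1]
    simp
    ring
  · intro k ha hb
    rw [wf_l N ha hb, wf_l N ha hb, (bf_one (pr_ne ha hb y) _).1, pf_inl, Equiv.symm_swap,
      Equiv.swap_apply_of_ne_of_ne ha hb, (bf_one (Pi.mulSingle_eq_of_ne ha _) v).1]
  · intro k ha hb
    rw [wf_r N ha hb, wf_r N ha hb, (bf_one (pr_ne ha hb y) _).2, pf_inr, Equiv.symm_swap,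
      Equiv.swap_apply_of_ne_of_ne ha hb, (bf_one (Pi.mulSingle_eq_of_ne ha _) v).2]

/-- `wE` and the sign of the second plane -/
theorem wE_sign {N : M2} (hN : 2 * N.det = 1) {a b : Fin m} (hab : a ≠ b) :
    (wE hN hab * blk (Pi.mulSingle b (-1)) : G) =
      blk (pr a b (-1)) * pmh (Equiv.swap a b) * wE hN hab := by
  have n1 : ∀ (i j : Fin 2), (-1 : SL) i j = if i = j then -1 else 0 := fun i j => by
    rw [Matrix.SpecialLinearGroup.coe_neg, Matrix.neg_apply, Matrix.SpecialLinearGroup.coe_one, Matrix.one_apply]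
    split_ifs <;> simp
  refine ext_mulVec fun v => ?_
  rw [coe_mul_mulVec, coe_mul_mulVec, coe_mul_mulVec, wE_mulVec, wE_mulVec, blk_mulVec, pmh_mulVec, blk_mulVec]
  have ha1 : (Pi.mulSingle b (-1) : Fin m → SL) a = 1 := Pi.mulSingle_eq_of_ne hab _
  refine ext_two (a := a) (b := b) ?_ ?_ ?_ ?_ ?_ ?_
  · rw [wf_la, (bf_one ha1 v).1, (bf_one ha1 v).2, bf_inl, bf_inr, bf_inl, pf_inl, pf_inr, Equiv.symm_swap,
      Equiv.swap_apply_left, wf_lb N hab, wf_rb N hab, Pi.mulSingle_eq_same, pr_a, n1, n1, n1, n1]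
    simp
    ring
  · rw [wf_ra, (bf_one ha1 v).1, (bf_one ha1 v).2, bf_inl, bf_inr, bf_inr, pf_inl, pf_inr, Equiv.symm_swap,
      Equiv.swap_apply_left, wf_lb N hab, wf_rb N hab, Pi.mulSingle_eq_same, pr_a, n1, n1, n1, n1]
    simp
    ring
  · rw [wf_lb N hab, (bf_one ha1 v).1, (bf_one ha1 v).2, bf_inl, bf_inr, bf_inl, pf_inl, pf_inr, Equiv.symm_swap,
      Equiv.swap_apply_right, wf_la, wf_ra, Pi.mulSingle_eq_same, pr_b, n1, n1, n1, n1]
    simp
    ring
  · rw [wf_rb N hab, (bf_one ha1 v).1, (bf_one ha1 v).2, bf_inl, bf_inr, bf_inr, pf_inl, pf_inr, Equiv.symm_swap,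
      Equiv.swap_apply_right, wf_la, wf_ra, Pi.mulSingle_eq_same, pr_b, n1, n1, n1, n1]
    simp
    ring
  · intro k ha hb
    rw [wf_l N ha hb, (bf_one (Pi.mulSingle_eq_of_ne hb _) v).1, (bf_one (pr_ne ha hb _) _).1, pf_inl,
      Equiv.symm_swap, Equiv.swap_apply_of_ne_of_ne ha hb, wf_l N ha hb]
  · intro k ha hb
    rw [wf_r N ha hb, (bf_one (Pi.mulSingle_eq_of_ne hb _) v).2, (bf_one (pr_ne ha hb _) _).2, pf_inr,
      Equiv.symm_swap, Equiv.swap_apply_of_ne_of_ne ha hb, wf_r N ha hb]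

/-- `wE` and the swap -/
theorem wE_swap {N : M2} (hN : 2 * N.det = 1) {a b : Fin m} (hab : a ≠ b) :
    (wE hN hab * pmh (Equiv.swap a b) : G) = blk (Pi.mulSingle b (-1)) * wE hN hab := by
  have n1 : ∀ (i j : Fin 2), (-1 : SL) i j = if i = j then -1 else 0 := fun i j => by
    rw [Matrix.SpecialLinearGroup.coe_neg, Matrix.neg_apply, Matrix.SpecialLinearGroup.coe_one, Matrix.one_apply]
    split_ifs <;> simp
  refine ext_mulVec fun v => ?_
  rw [coe_mul_mulVec, coe_mul_mulVec, wE_mulVec, wE_mulVec, blk_mulVec, pmh_mulVec]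
  have ha1 : (Pi.mulSingle b (-1) : Fin m → SL) a = 1 := Pi.mulSingle_eq_of_ne hab _
  refine ext_two (a := a) (b := b) ?_ ?_ ?_ ?_ ?_ ?_
  · rw [wf_la, (bf_one ha1 _).1, pf_inl, pf_inl, pf_inr, pf_inr, Equiv.symm_swap,
      Equiv.swap_apply_left, Equiv.swap_apply_right, wf_la]
    ring
  · rw [wf_ra, (bf_one ha1 _).2, pf_inl, pf_inl, pf_inr, pf_inr, Equiv.symm_swap,
      Equiv.swap_apply_left, Equiv.swap_apply_right, wf_ra]
    ring
  · rw [wf_lb N hab, bf_inl, pf_inl, pf_inl, pf_inr, pf_inr, Equiv.symm_swap,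
      Equiv.swap_apply_left, Equiv.swap_apply_right, wf_lb N hab, wf_rb N hab, Pi.mulSingle_eq_same, n1, n1]
    simp
    ring
  · rw [wf_rb N hab, bf_inr, pf_inl, pf_inl, pf_inr, pf_inr, Equiv.symm_swap,
      Equiv.swap_apply_left, Equiv.swap_apply_right, wf_lb N hab, wf_rb N hab, Pi.mulSingle_eq_same, n1, n1]
    simp
    ring
  · intro k ha hb
    rw [wf_l N ha hb, (bf_one (Pi.mulSingle_eq_of_ne hb _) _).1, pf_inl,
      Equiv.symm_swap, Equiv.swap_apply_of_ne_of_ne ha hb, wf_l N ha hb]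
  · intro k ha hb
    rw [wf_r N ha hb, (bf_one (Pi.mulSingle_eq_of_ne hb _) _).2, pf_inr,
      Equiv.symm_swap, Equiv.swap_apply_of_ne_of_ne ha hb, wf_r N ha hb]

/-- `wE` commutes with what is trivial on the two planes -/
theorem wE_comm {N : M2} (hN : 2 * N.det = 1) {a b : Fin m} (hab : a ≠ b) {g : Fin m → SL} {σ : Equiv.Perm (Fin m)}
    (ga : g a = 1) (gb : g b = 1) (sa : σ a = a) (sb : σ b = b) :
    (wE hN hab * (blk g * pmh σ) : G) = blk g * pmh σ * wE hN hab := by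
  have sa' : σ.symm a = a := by rw [Equiv.symm_apply_eq]; exact sa.symm
  have sb' : σ.symm b = b := by rw [Equiv.symm_apply_eq]; exact sb.symm
  have hka : ∀ k, k ≠ a → σ.symm k ≠ a := fun k hk h => hk (by rw [Equiv.symm_apply_eq] at h; rw [h, sa])
  have hkb : ∀ k, k ≠ b → σ.symm k ≠ b := fun k hk h => hk (by rw [Equiv.symm_apply_eq] at h; rw [h, sb])
  refine ext_mulVec fun v => ?_
  rw [coe_mul_mulVec, coe_mul_mulVec, coe_mul_mulVec, coe_mul_mulVec, wE_mulVec, wE_mulVec, blk_mulVec, pmh_mulVec,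
    blk_mulVec, pmh_mulVec]
  refine ext_two (a := a) (b := b) ?_ ?_ ?_ ?_ ?_ ?_
  · rw [wf_la, (bf_one ga _).1, (bf_one ga _).2, (bf_one gb _).1, (bf_one gb _).2, (bf_one ga _).1,
      pf_inl, pf_inl, pf_inl, pf_inr, pf_inr, sa', sb', wf_la]
  · rw [wf_ra, (bf_one ga _).1, (bf_one ga _).2, (bf_one gb _).1, (bf_one gb _).2, (bf_one ga _).2,
      pf_inl, pf_inl, pf_inr, pf_inr, pf_inr, sa', sb', wf_ra]
  · rw [wf_lb N hab, (bf_one ga _).1, (bf_one ga _).2, (bf_one gb _).1, (bf_one gb _).2, (bf_one gb _).1,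
      pf_inl, pf_inl, pf_inl, pf_inr, pf_inr, sa', sb', wf_lb N hab]
  · rw [wf_rb N hab, (bf_one ga _).1, (bf_one ga _).2, (bf_one gb _).1, (bf_one gb _).2, (bf_one gb _).2,
      pf_inl, pf_inl, pf_inr, pf_inr, pf_inr, sa', sb', wf_rb N hab]
  · intro k ha hb
    rw [wf_l N ha hb, bf_inl, bf_inl, pf_inl, pf_inr, pf_inl, pf_inr, wf_l N (hka k ha) (hkb k hb),
      wf_r N (hka k ha) (hkb k hb)]
  · intro k ha hb
    rw [wf_r N ha hb, bf_inr, bf_inr, pf_inl, pf_inr, pf_inl, pf_inr, wf_l N (hka k ha) (hkb k hb),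
      wf_r N (hka k ha) (hkb k hb)]

end Cfsg.Agent.H747.PspRow
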